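import Mathlib
import Cfsg.Agent.H605.NX.HerF

/-!
# S4816, layer (I): the Hering step in characteristic `p` (helper37)

`M` acts on the elementary abelian `p`-group `W` (a block), transitively on the nonzero vectors, `Q` is a normal
subgroup of order prime to `p`. `herP_same`: if `M / Q` is simple and large then `Q` induces everything.
`herP_five`: the case `M / Q ≅ A_4`, `p = 3`.
-/

set_option autoImplicit false
set_option linter.style.haveILetI false
set_option linter.unusedSectionVars false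

namespace Cfsg.Agent.H37.RIM

open MulAction Cfsg.Agent.H605.NX

universe v

/-- Hering's theorem in odd characteristic (coarse form). -/
def HerP : Prop :=
  ∀ (p : ℕ), p.Prime → p ≠ 2 → ∀ {V : Type v} [AddCommGroup V] [Finite V] [Nontrivial V],
    (∀ v : V, p • v = 0) → ∀ (H : Subgroup (Equiv.Perm V)),
    (∀ h ∈ H, ∀ v w : V, h (v + w) = h v + h w) →
    (∀ v w : V, v ≠ 0 → w ≠ 0 → ∃ h ∈ H, h v = w) →
    (∃ c : ℕ, 1 ≤ c ∧ (c = 1 → Nat.card V = p ^ 2) ∧ ∃ N : Subgroup H, N.Normal ∧ p ^ c ∣ Nat.card N ∧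
      ¬ p ^ (c + 1) ∣ Nat.card N ∧ Nat.card N < p ^ (3 * c)) ∨
    (∃ (F : Type) (_ : Field F) (_ : Fintype F) (e : V ≃+ F),
      ∀ h ∈ H, ∃ (c : F) (σ : F ≃+* F), ∀ v : V, e (h v) = c * σ (e v)) ∨
    (Nat.card V = p ^ 2 ∧ (p = 5 ∨ p = 7 ∨ p = 11 ∨ p = 23) ∧
      ∃ N : Subgroup H, N.Normal ∧ Nonempty (N ≃* QuaternionGroup 2)) ∨
    (Nat.card V = p ^ 2 ∧ (p = 11 ∨ p = 19 ∨ p = 29 ∨ p = 59) ∧
      ∃ N : Subgroup H, N.Normal ∧ Nonempty (N ≃* Matrix.SpecialLinearGroup (Fin 2) (ZMod 5))) ∨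
    (p = 3 ∧ Nat.card V = 81) ∨
    (p = 3 ∧ Nat.card H = 2184 ∧ commutator H = ⊤)

section
variable {M W : Type*} [Group M] [Finite M] [AddCommGroup W] [Finite W] [DistribMulAction M W]

/-- the fixed points of an element -/
def fixA (W : Type*) [AddCommGroup W] [DistribMulAction M W] (g : M) : AddSubgroup W where
  carrier := {w | g • w = w}
  zero_mem' := smul_zero g
  add_mem' := fun {a b} ha hb => by
    change g • (a + b) = a + b
    rw [smul_add, show g • a = a from ha, show g • b = b from hb]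
  neg_mem' := fun {a} ha => by
    change g • (-a) = -a
    rw [smul_neg, show g • a = a from ha]

theorem card_fixA_modEq {r : ℕ} [hr : Fact r.Prime] {g : M} (hg : ∃ k, g ^ r ^ k = 1) :
    Nat.card W ≡ Nat.card (fixA W g) [MOD r] := by
  have h1 : IsPGroup r (Subgroup.zpowers g) := by
    rintro ⟨_, i, rfl⟩
    obtain ⟨k, hk⟩ := hg
    refine ⟨k, Subtype.ext ?_⟩
    change (g ^ i) ^ r ^ k = 1
    rw [← zpow_natCast, ← zpow_mul, mul_comm, zpow_mul, zpow_natCast, hk, one_zpow]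
  have h2 := h1.card_modEq_card_fixedPoints W
  have h3 : Nat.card (fixedPoints (Subgroup.zpowers g) W) = Nat.card (fixA W g) := by
    refine Nat.card_congr (Equiv.subtypeEquivRight fun w => ?_)
    constructor
    · intro h
      exact h ⟨g, Subgroup.mem_zpowers g⟩
    · rintro h ⟨x, hx⟩
      have h4 : Subgroup.zpowers g ≤ stabilizer M w := by
        rw [Subgroup.zpowers_le]
        exact h
      exact h4 hx
  rwa [h3] at h2

/-- an element of order a power of `7` acts trivially on `F_3 ^ 4` -/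
theorem seven_trivial (hcard : Nat.card W = 81) {g : M} (hg : ∃ k, g ^ 7 ^ k = 1) (w : W) :
    g • w = w := by
  haveI : Fact (Nat.Prime 7) := ⟨by norm_num⟩
  have h1 := card_fixA_modEq (W := W) (r := 7) hg
  have h2 : Nat.card (fixA W g) ∣ 3 ^ 4 := by
    have h := AddSubgroup.card_addSubgroup_dvd_card (fixA W g)
    rw [hcard] at h
    exact h
  obtain ⟨k, hk, hk'⟩ := (Nat.dvd_prime_pow Nat.prime_three).1 h2
  rw [hcard, hk'] at h1
  have h3 : k = 4 := by
    interval_cases k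
    · exact absurd h1 (by decide)
    · exact absurd h1 (by decide)
    · exact absurd h1 (by decide)
    · exact absurd h1 (by decide)
    · rfl
  rw [h3] at hk'
  have h4 : fixA W g = ⊤ := by
    apply AddSubgroup.eq_top_of_card_eq
    rw [hk', hcard]; norm_num
  have h5 : w ∈ fixA W g := by rw [h4]; trivial
  exact h5

/-- a lift of an element of prime order to an element of prime power order -/
theorem exists_lift_ppow (Q : Subgroup M) [Q.Normal] {r : ℕ} (hr : r.Prime) {x : M ⧸ Q}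
    (hx : orderOf x = r) : ∃ g : M, g ∉ Q ∧ ∃ k, g ^ r ^ k = 1 := by
  haveI := Fact.mk hr
  obtain ⟨g, rfl⟩ := QuotientGroup.mk_surjective x
  obtain ⟨e, m, hm, hem⟩ := Nat.exists_eq_pow_mul_and_not_dvd (orderOf_pos g).ne' r hr.one_lt.ne'
  refine ⟨g ^ m, ?_, e, ?_⟩
  · intro h
    rw [← QuotientGroup.eq_one_iff, QuotientGroup.mk_pow] at h
    apply hm
    rw [← hx]
    exact orderOf_dvd_of_pow_eq_one h
  · rw [← pow_mul, mul_comm, ← hem, pow_orderOf_eq_one]

/-- a normal subgroup of the induced group which does not come from `Q` -/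
theorem card_quot_le_of_normal (Q : Subgroup M) [hQ : Q.Normal] [hs : IsSimpleGroup (M ⧸ Q)] {p : ℕ}
    (hp : p.Prime) (hpQ : ¬ p ∣ Nat.card Q) (hker : ∀ g : M, (∀ w : W, g • w = w) → g ∈ Q)
    (N : Subgroup (toPermHom M W).range) [hN : N.Normal] (hpN : p ∣ Nat.card N) :
    ∃ k : ℕ, ¬ p ∣ k ∧ Nat.card N = Nat.card (M ⧸ Q) * k := by
  classical
  let ρ : M →* (toPermHom M W).range := (toPermHom M W).rangeRestrict
  have hρ : Function.Surjective ρ := (toPermHom M W).rangeRestrict_surjective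
  have hkρ : ρ.ker ≤ Q := by
    intro g hg
    apply hker
    intro w
    have h1 : toPermHom M W g = 1 := congrArg Subtype.val (MonoidHom.mem_ker.1 hg)
    exact congrArg (fun f : Equiv.Perm W => f w) h1
  set N' := N.comap ρ with hN'
  have hkN : ρ.ker ≤ N' := by
    intro g hg
    rw [hN', Subgroup.mem_comap, MonoidHom.mem_ker.1 hg]
    exact one_mem _
  have hmap : N'.map ρ = N := Subgroup.map_comap_eq_self_of_surjective hρ N
  have h1 : (N'.map (QuotientGroup.mk' Q)).Normal :=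
    Subgroup.Normal.map inferInstance _ (QuotientGroup.mk'_surjective Q)
  rcases h1.eq_bot_or_eq_top with h2 | h2
  · exfalso
    apply hpQ
    have h3 : N' ≤ Q := by
      rw [Subgroup.map_eq_bot_iff, QuotientGroup.ker_mk'] at h2
      exact h2
    have h4 : Nat.card N ∣ Nat.card N' := by
      conv_lhs => rw [← hmap]
      exact Subgroup.card_map_dvd N' ρ
    exact hpN.trans (h4.trans (Subgroup.card_dvd_of_le h3))
  · have h3 : N' ⊔ Q = ⊤ := by
      have h4 : (N'.map (QuotientGroup.mk' Q)).comap (QuotientGroup.mk' Q) = ⊤ := by rw [h2]; rfl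
      rwa [Subgroup.comap_map_eq, QuotientGroup.ker_mk'] at h4
    have h5 : Q.relIndex N' = Nat.card (M ⧸ Q) := by
      rw [← Subgroup.relIndex_sup_right, h3, Subgroup.relIndex_top_right]
      rfl
    have h6 : ρ.ker.relIndex N' = Nat.card N := by
      rw [Subgroup.relIndex_ker, hmap]
    have h7 := Subgroup.relIndex_mul_relIndex ρ.ker (Q ⊓ N') N' (le_inf hkρ hkN) inf_le_right
    rw [Subgroup.inf_relIndex_right, h5, h6] at h7
    refine ⟨ρ.ker.relIndex (Q ⊓ N'), ?_, by rw [← h7, mul_comm]⟩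
    intro h
    exact hpQ (h.trans ((Subgroup.relIndex_dvd_card _ _).trans (Subgroup.card_dvd_of_le inf_le_left)))

end

section
variable {M : Type*} {W : Type v} [Group M] [Finite M] [AddCommGroup W] [Finite W] [DistribMulAction M W]

/-- **The Hering step**, `M / Q` simple: `Q` induces everything. -/
theorem herP_same (hher : HerP.{v}) {p : ℕ} [hp : Fact p.Prime] [Nontrivial W] (hp2 : p ≠ 2)
    (hexp : ∀ w : W, p • w = 0) (htr : ∀ v w : W, v ≠ 0 → w ≠ 0 → ∃ g : M, g • v = w) (Q : Subgroup M)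
    [hQ : Q.Normal] [hs : IsSimpleGroup (M ⧸ Q)] (hna : ¬ IsMulCommutative (M ⧸ Q))
    (hpQ : ¬ p ∣ Nat.card Q)
    (hc : ∀ c, 1 ≤ c → p ^ c ∣ Nat.card (M ⧸ Q) → ¬ p ^ (c + 1) ∣ Nat.card (M ⧸ Q) →
      p ^ (3 * c) ≤ Nat.card (M ⧸ Q))
    (h64 : 64 < Nat.card (M ⧸ Q)) (h11 : 11 ≤ p → 14400 < Nat.card (M ⧸ Q))
    (h7 : p = 3 → 7 ∣ Nat.card (M ⧸ Q)) (h5 : p = 3 → ¬ Nat.card (M ⧸ Q) ∣ 2184) (g : M) :
    ∃ h ∈ Q, ∀ w : W, g • w = h • w := by
  classical
  by_contra hcon
  have hker : ∀ g : M, (∀ w : W, g • w = w) → g ∈ Q := by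
    by_contra h
    exact hcon (same_of_simple Q h g)
  set T := (toPermHom M W).range with hT
  have hTadd : ∀ h ∈ T, ∀ v w : W, h (v + w) = h v + h w := by
    rintro _ ⟨m, rfl⟩ v w
    exact smul_add m v w
  have hTtr : ∀ v w : W, v ≠ 0 → w ≠ 0 → ∃ h ∈ T, h v = w := by
    intro v w hv hw
    obtain ⟨m, hm⟩ := htr v w hv hw
    exact ⟨toPermHom M W m, ⟨m, rfl⟩, hm⟩
  rcases hher p hp.out hp2 hexp T hTadd hTtr with ⟨c, hc1, -, N, hN, h1, h2, h3⟩ | ⟨F, _, _, e, hF⟩ |
    ⟨hW, hq, N, hN, ⟨ψ⟩⟩ | ⟨hW, hq, N, hN, ⟨ψ⟩⟩ | ⟨hp3, hW⟩ | ⟨hp3, hH, -⟩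
  · haveI := hN
    obtain ⟨k, hk, hNk⟩ := card_quot_le_of_normal (W := W) Q hp.out hpQ hker N
      ((dvd_pow_self p (by omega)).trans h1)
    have h4 : p ^ c ∣ Nat.card (M ⧸ Q) := by
      rw [hNk] at h1
      exact (Nat.Coprime.pow_left c ((Nat.Prime.coprime_iff_not_dvd hp.out).2 hk)).dvd_of_dvd_mul_right h1
    have h5' : ¬ p ^ (c + 1) ∣ Nat.card (M ⧸ Q) := fun h => h2 (by rw [hNk]; exact h.mul_right k)
    have h6 := hc c hc1 h4 h5'
    have h8 : Nat.card (M ⧸ Q) ≤ Nat.card N := by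
      rw [hNk]
      refine Nat.le_mul_of_pos_right _ (Nat.pos_of_ne_zero ?_)
      rintro rfl
      exact hk (dvd_zero p)
    omega
  · exact metab e (fun m => hF _ ⟨m, rfl⟩) Q hna hker
  · haveI := hN
    exact hcon (exc_same hexp hW N ψ quat_ne Q hna (card_mulAut_quat_le.trans_lt h64) g)
  · haveI := hN
    exact hcon (exc_same hexp hW N ψ tu_mul_tv Q hna (card_mulAut_SL25_le.trans_lt (h11 (by omega))) g)
  · haveI : Fact (Nat.Prime 7) := ⟨by norm_num⟩
    obtain ⟨x, hx⟩ := exists_prime_orderOf_dvd_card' (G := M ⧸ Q) 7 (h7 hp3)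
    obtain ⟨y, hyQ, hy⟩ := exists_lift_ppow Q (by norm_num) hx
    exact hyQ (hker y fun w => seven_trivial hW hy w)
  · apply h5 hp3
    rw [← hH]
    have h6 : (toPermHom M W).ker ≤ Q := by
      intro m hm
      apply hker
      intro w
      exact congrArg (fun f : Equiv.Perm W => f w) (MonoidHom.mem_ker.1 hm)
    have h8 := Subgroup.index_dvd_of_le h6
    rw [Subgroup.index_ker] at h8
    exact h8

/-- If `Q` induces everything, `p`-elements act trivially. -/
theorem trivial_of_same {p : ℕ} (hp : p.Prime) {Q : Subgroup M} (hpQ : ¬ p ∣ Nat.card Q) {g h : M}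
    (hh : h ∈ Q) (hgh : ∀ w : W, g • w = h • w) (hg : ∃ k, g ^ p ^ k = 1) (w : W) : g • w = w := by
  haveI := Fact.mk hp
  obtain ⟨k, hk⟩ := hg
  have h1 : toPermHom M W g = toPermHom M W h := by
    ext w
    exact hgh w
  have h2 : (toPermHom M W h) ^ p ^ k = 1 := by rw [← h1, ← map_pow, hk, map_one]
  have h3 : (toPermHom M W h) ^ Nat.card Q = 1 := by
    rw [← map_pow]
    have h4 : h ^ Nat.card Q = 1 := by
      have h5 : (⟨h, hh⟩ : Q) ^ Nat.card Q = 1 := pow_card_eq_one'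
      exact congrArg Subtype.val h5
    rw [h4, map_one]
  have h4 := pow_gcd_eq_one.2 ⟨h2, h3⟩
  rw [(Nat.Coprime.pow_left k ((Nat.Prime.coprime_iff_not_dvd hp).2 hpQ)).gcd_eq_one, pow_one] at h4
  rw [← h1] at h4
  exact congrArg (fun f : Equiv.Perm W => f w) h4

end

end Cfsg.Agent.H37.RIM
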